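import Cfsg.Agent.H955.FSDefs
import Cfsg.Agent.H692.RealOver
import Cfsg.Agent.S0188

/-!
# Parity of multiplicities in the restriction of a character with indicator `-1` (helper852, task B of FS_even)
-/

set_option autoImplicit false

namespace Cfsg.Agent.H955.FS

open Cfsg
open Cfsg.Agent.Characters.Core Cfsg.Agent.Characters.Clifford
open Cfsg.Agent.H692.SqRoot
open scoped ComplexConjugate

universe u

theorem Parity.fsi_eq_nu {G : Type u} [Group G] [Fintype G] (χ : G → ℂ) : fsi χ = nu χ := by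
  unfold fsi nu
  rw [finsum_eq_sum_of_fintype]

/-- splitting a function invariant under an involution -/
theorem Parity.exists_split {I : Type*} [Fintype I] (σ : I → I) (hσ : ∀ i, σ (σ i) = i) (m : I → ℕ)
    (hm : ∀ i, m (σ i) = m i) (h2 : ∀ i, σ i = i → Even (m i)) :
    ∃ k : I → ℕ, ∀ i, k i + k (σ i) = m i := by
  classical
  let e := Fintype.equivFin I
  refine ⟨fun i => if e i < e (σ i) then m i else if σ i = i then m i / 2 else 0, fun i => ?_⟩
  simp only [hσ]
  rcases lt_trichotomy (e i) (e (σ i)) with h | h | h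
  · rw [if_pos h, if_neg (not_lt.2 h.le), if_neg (fun h1 => absurd (congrArg e h1) h.ne), add_zero]
  · have h1 : σ i = i := (e.injective h).symm
    rw [h1, if_neg (lt_irrefl _), if_pos rfl]
    obtain ⟨k, hk⟩ := h2 i h1
    omega
  · rw [if_neg (not_lt.2 h.le), if_neg (fun h1 => absurd (congrArg e h1) h.ne), if_pos h, zero_add, hm]

/-- the multiplicity of a real character with indicator `≠ -1` in the restriction of a character with indicator
`-1` is even -/
theorem Parity.even_mult {G : Type u} [Group G] [Fintype G] {χ : G → ℂ} (hχ : IsIrrCharacter G χ) (hν : nu χ = -1)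
    (X : Subgroup G) [Fintype X] {ψ : X → ℂ} (hψ : IsIrrCharacter X ψ) (hreal : ∀ x, conj (ψ x) = ψ x)
    (hψν : nu ψ ≠ -1) {m : ℕ} (hm : classInner (fun x : X => χ x) ψ = m) : Even m := by
  classical
  by_contra hodd
  rw [Nat.not_even_iff_odd] at hodd
  have hχr : ∀ g, (χ g).im = 0 := by
    rcases nu_spec hχ with h | h
    · rw [h.1] at hν
      norm_num at hν
    · exact h.2
  let Θ : G × X → ℂ := fun x => χ x.1 * ψ x.2
  have hΘ : IsIrrCharacter (G × X) Θ := (Cfsg.Agent.S0188.result Θ).2 ⟨χ, ψ, hχ, hψ, rfl⟩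
  have hΘr : ∀ g, (Θ g).im = 0 := by
    intro g
    have h1 : (ψ g.2).im = 0 := Complex.conj_eq_iff_im.1 (hreal _)
    change (χ g.1 * ψ g.2).im = 0
    rw [Complex.mul_im, hχr, h1, mul_zero, zero_mul, add_zero]
  have hΘν : nu Θ = nu χ * nu ψ := by
    unfold nu
    rw [Nat.card_prod, Fintype.sum_prod_type]
    simp only [Θ, Prod.mk_mul_mk]
    rw [← Finset.sum_mul_sum]
    push_cast
    rw [mul_inv]
    ring
  let δ : X →* G × X := X.subtype.prod (MonoidHom.id X)
  have hδ : Function.Injective δ := fun a b h => congrArg Prod.snd h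
  let e : X ≃* δ.range := MonoidHom.ofInjective hδ
  have hfin : Fintype δ.range := Fintype.ofFinite _
  have h1 := Cfsg.Agent.H692.RealOver.nu_eq_one_of_odd_mult hΘ hΘr δ.range m hodd (by
    rw [← classInner_comp_mulEquiv e, ← hm]
    unfold classInner
    congr 1
    refine Finset.sum_congr rfl fun x _ => ?_
    rw [hreal]
    simp only [Function.comp_apply, map_one, mul_one]
    rfl)
  rw [hΘν, hν] at h1
  apply hψν
  linear_combination -h1

/-- the version for the constituents only -/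
theorem exists_half' {G : Type u} [Group G] [Finite G] {χ : G → ℂ} (hχ : IsIrrCharacter G χ) (hν : fsi χ = -1)
    (X : Subgroup G)
    (hX : ∀ ψ : X → ℂ, IsIrrCharacter X ψ → ∑ᶠ x : X, χ x * conj (ψ x) ≠ 0 → fsi ψ ≠ -1) :
    ∃ α : X → ℂ, IsCharacter X α ∧ ∀ x : X, χ x = α x + conj (α x) := by
  classical
  have hG := Fintype.ofFinite G
  have hfX := Fintype.ofFinite X
  rw [Parity.fsi_eq_nu] at hν
  have hχr : ∀ g, conj (χ g) = χ g := by
    rcases nu_spec hχ with h | h
    · rw [h.1] at hν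
      norm_num at hν
    · exact fun g => Complex.conj_eq_iff_im.2 (h.2 g)
  have := finite_irr (G := X)
  have hI := Fintype.ofFinite (IrrCharacter X)
  have hres : IsCharacter X (fun x : X => χ x) := isCharacter_restrict X (isIrr_isCharacter hχ)
  obtain ⟨m, hm⟩ := exists_nat_comb hres
  have hmult : ∀ ψ : IrrCharacter X, classInner (fun x : X => χ x) (ψ : X → ℂ) = m ψ := by
    intro ψ
    rw [hm]
    exact classInner_sum_nsmul_irr m ψ
  let σ : IrrCharacter X → IrrCharacter X := fun ψ => ⟨fun x => conj ((ψ : X → ℂ) x), isIrr_conj ψ.2⟩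
  have hσ : ∀ ψ, σ (σ ψ) = ψ := by
    intro ψ
    apply Subtype.ext
    funext x
    exact Complex.conj_conj _
  have hmσ : ∀ ψ, m (σ ψ) = m ψ := by
    intro ψ
    have h1 : (m (σ ψ) : ℂ) = m ψ := by
      rw [← hmult, ← hmult, classInner_def, classInner_def]
      have h2 : ∀ x : X, χ x * conj ((σ ψ : X → ℂ) x) = conj (χ x * conj ((ψ : X → ℂ) x)) := by
        intro x
        rw [map_mul, hχr]
      simp only [h2]
      have h3 : (Nat.card X : ℂ)⁻¹ * ∑ x : X, conj (χ x * conj ((ψ : X → ℂ) x)) =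
          conj ((Nat.card X : ℂ)⁻¹ * ∑ x : X, χ x * conj ((ψ : X → ℂ) x)) := by
        rw [map_mul, map_inv₀, map_natCast, map_sum]
      rw [h3, ← classInner_def (fun x : X => χ x), hmult, map_natCast]
    exact_mod_cast h1
  have heven : ∀ ψ, σ ψ = ψ → Even (m ψ) := by
    intro ψ hψ
    rcases Nat.eq_zero_or_pos (m ψ) with h0 | h0
    · rw [h0]
      exact Even.zero
    · refine Parity.even_mult hχ hν X ψ.2 (fun x => congrFun (congrArg Subtype.val hψ) x) ?_ (hmult ψ)
      rw [← Parity.fsi_eq_nu]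
      refine hX _ ψ.2 ?_
      rw [finsum_eq_sum_of_fintype]
      intro h1
      have h2 := hmult ψ
      rw [classInner_def, h1, mul_zero] at h2
      have h3 : m ψ = 0 := by exact_mod_cast h2.symm
      omega
  obtain ⟨k, hk⟩ := Parity.exists_split σ hσ m hmσ heven
  refine ⟨∑ ψ : IrrCharacter X, k ψ • (ψ : X → ℂ), isCharacter_sum _ fun ψ _ =>
    isCharacter_nsmul _ (isIrr_isCharacter ψ.2), fun x => ?_⟩
  have h1 : χ x = ∑ ψ : IrrCharacter X, (m ψ : ℂ) * (ψ : X → ℂ) x := by
    have h2 := congrFun hm x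
    rw [h2, Finset.sum_apply]
    refine Finset.sum_congr rfl fun ψ _ => ?_
    rw [Pi.smul_apply, nsmul_eq_mul]
  have h2 : (∑ ψ : IrrCharacter X, k ψ • (ψ : X → ℂ)) x = ∑ ψ : IrrCharacter X, (k ψ : ℂ) * (ψ : X → ℂ) x := by
    rw [Finset.sum_apply]
    refine Finset.sum_congr rfl fun ψ _ => ?_
    rw [Pi.smul_apply, nsmul_eq_mul]
  have h3 : conj (∑ ψ : IrrCharacter X, (k ψ : ℂ) * (ψ : X → ℂ) x) =
      ∑ ψ : IrrCharacter X, (k (σ ψ) : ℂ) * (ψ : X → ℂ) x := by
    rw [map_sum]
    refine Fintype.sum_equiv ⟨σ, σ, hσ, hσ⟩ _ _ fun ψ => ?_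
    rw [map_mul, map_natCast]
    change _ = (k (σ (σ ψ)) : ℂ) * (σ ψ : X → ℂ) x
    rw [hσ]
  rw [h2, h3, h1, ← Finset.sum_add_distrib]
  refine Finset.sum_congr rfl fun ψ _ => ?_
  rw [← hk ψ]
  push_cast
  ring

/-- **task B.** -/
theorem exists_half {G : Type u} [Group G] [Finite G] {χ : G → ℂ} (hχ : IsIrrCharacter G χ) (hν : fsi χ = -1)
    (X : Subgroup G) (hX : FSGood True X) :
    ∃ α : X → ℂ, IsCharacter X α ∧ ∀ x : X, χ x = α x + conj (α x) := by
  refine exists_half' hχ hν X fun ψ hψ _ h => ?_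
  rcases hX ψ hψ with h1 | ⟨-, h1⟩ <;> rw [h1] at h <;> norm_num at h

end Cfsg.Agent.H955.FS
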