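import Mathlib

/-!
# Rigidity of two matchings of a frame under a transvection or reflection (helper955, S5760)

`V = κ → F` with its frame of coordinate lines, two partitions `β`, `β'` of the frame in blocks of at most two lines;
`y` permutes the blocks of `β`, `y₂` those of `β'`, and `y (u + φ u • v) = y₂ u + φ (y₂ u) • v`, where `v` has at least
seven non-zero coordinates, five of them connected by `β` and `β'`.

* `frame_rigid` : `y v = l • v`, `y = y₂`, `φ (y u) = l * φ u`;
* `mono` : `y` is monomial if `β` and `β'` separate the lines;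
* `chain_fixed` : propagation of fixed lines along a chain.
-/

set_option autoImplicit false
set_option linter.unusedSectionVars false

namespace Cfsg.Agent.H955.Rig

open Finset

variable {F : Type*} [Field F] {κ : Type*} [Fintype κ] [DecidableEq κ] {B B' : Type*}

/-- `y` maps the block `b` into the block `τ b` -/
def Blk (β : κ → B) (y : (κ → F) →ₗ[F] (κ → F)) (τ : B → B) : Prop :=
  ∀ k i, y (Pi.single k 1) i ≠ 0 → β i = τ (β k)

/-- the blocks have at most two elements -/
def Two (β : κ → B) : Prop := ∀ i j k, β i = β j → β j = β k → i = j ∨ j = k ∨ i = k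

theorem Two.card_le {β : κ → B} (h : Two β) (b : B) [DecidableEq B] : (univ.filter fun i => β i = b).card ≤ 2 := by
  by_contra hcon
  push Not at hcon
  obtain ⟨i, hi, j, hj, k, hk, hij, hik, hjk⟩ := Finset.two_lt_card.1 hcon
  rw [mem_filter] at hi hj hk
  rcases h i j k (hi.2.trans hj.2.symm) (hj.2.trans hk.2.symm) with h1 | h1 | h1
  · exact hij h1
  · exact hjk h1
  · exact hik h1

/-- at most two elements of an injective family in a block -/
theorem Two.card_le_of_inj {β : κ → B} (h : Two β) (b : B) [DecidableEq B] {n : ℕ} {c : Fin n → κ}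
    (hc : Function.Injective c) : (univ.filter fun i => β (c i) = b).card ≤ 2 := by
  by_contra hcon
  push Not at hcon
  obtain ⟨i, hi, j, hj, k, hk, hij, hik, hjk⟩ := Finset.two_lt_card.1 hcon
  rw [mem_filter] at hi hj hk
  rcases h (c i) (c j) (c k) (hi.2.trans hj.2.symm) (hj.2.trans hk.2.symm) with h1 | h1 | h1
  · exact hij (hc h1)
  · exact hjk (hc h1)
  · exact hik (hc h1)

variable {β : κ → B} {β' : κ → B'} {y y₂ : (κ → F) →ₗ[F] (κ → F)} {τ : B → B} {τ' : B' → B'}
  {φ : (κ → F) →ₗ[F] F} {v : κ → F}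

/-- **Rigidity.** -/
theorem frame_rigid (hβ : Two β) (hβ' : Two β') (hτ : Function.Injective τ) (hτ' : Function.Injective τ')
    (hy : Blk β y τ) (hy₂ : Blk β' y₂ τ') (hφ : ∀ k, v k ≠ 0 → φ (Pi.single k 1) ≠ 0)
    (hrel : ∀ u, y (u + φ u • v) = y₂ u + φ (y₂ u) • v) (hbig : ∀ s : Finset κ, s.card ≤ 6 → ∃ i, v i ≠ 0 ∧ i ∉ s)
    {c : Fin 5 → κ} (hc : Function.Injective c) (hcv : ∀ i, v (c i) ≠ 0)
    (hadj : ∀ i : Fin 4, β (c i.castSucc) = β (c i.succ) ∨ β' (c i.castSucc) = β' (c i.succ)) :
    ∃ l : F, y v = l • v ∧ y = y₂ ∧ ∀ u, φ (y u) = l * φ u := by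
  classical
  obtain ⟨w, hwdef⟩ : ∃ w : κ → κ → F, ∀ k, w k = (φ (Pi.single k 1))⁻¹ • (y₂ (Pi.single k 1) - y (Pi.single k 1)) :=
    ⟨_, fun _ => rfl⟩
  obtain ⟨l, hldef⟩ : ∃ l : κ → F, ∀ k, l k = (φ (Pi.single k 1))⁻¹ * φ (y₂ (Pi.single k 1)) := ⟨_, fun _ => rfl⟩
  have hw : ∀ k, v k ≠ 0 → y v = w k + l k • v := by
    intro k hk
    have h1 := hrel (Pi.single k 1)
    rw [map_add, map_smul] at h1
    have h0 := hφ k hk
    have h2 : y v = (φ (Pi.single k 1))⁻¹ • (φ (Pi.single k 1) • y v) := by
      rw [smul_smul, inv_mul_cancel₀ h0, one_smul]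
    have h3 : φ (Pi.single k 1) • y v = (y₂ (Pi.single k 1) - y (Pi.single k 1)) + φ (y₂ (Pi.single k 1)) • v := by
      rw [sub_add_eq_add_sub, ← h1, add_sub_cancel_left]
    rw [h2, h3, smul_add, smul_smul, hwdef, hldef]
  have hws : ∀ k i, w k i ≠ 0 → β i = τ (β k) ∨ β' i = τ' (β' k) := by
    intro k i h
    rw [hwdef, Pi.smul_apply, Pi.sub_apply, smul_eq_mul] at h
    have h1 := right_ne_zero_of_mul h
    by_cases h2 : y (Pi.single k 1) i = 0
    · right
      rw [h2, sub_zero] at h1
      exact hy₂ k i h1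
    · left
      exact hy k i h2
  have hadj' : ∀ k k', v k ≠ 0 → v k' ≠ 0 → (β k = β k' ∨ β' k = β' k') → l k = l k' := by
    intro k k' hk hk' hkk
    obtain ⟨s, hs, hs1, hs2⟩ : ∃ s : Finset κ, s.card ≤ 6 ∧ (∀ i, w k i ≠ 0 → i ∈ s) ∧ (∀ i, w k' i ≠ 0 → i ∈ s) := by
      rcases hkk with h | h
      · refine ⟨(univ.filter fun i => β i = τ (β k)) ∪ ((univ.filter fun i => β' i = τ' (β' k)) ∪
          (univ.filter fun i => β' i = τ' (β' k'))), ?_, ?_, ?_⟩
        · have e1 := hβ.card_le (τ (β k))
          have e2 := hβ'.card_le (τ' (β' k))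
          have e3 := hβ'.card_le (τ' (β' k'))
          have e4 := card_union_le (univ.filter fun i => β i = τ (β k)) ((univ.filter fun i => β' i = τ' (β' k)) ∪
            (univ.filter fun i => β' i = τ' (β' k')))
          have e5 := card_union_le (univ.filter fun i => β' i = τ' (β' k)) (univ.filter fun i => β' i = τ' (β' k'))
          omega
        · intro i hi
          rw [mem_union, mem_union, mem_filter, mem_filter, mem_filter]
          rcases hws k i hi with h1 | h1
          · exact Or.inl ⟨mem_univ _, h1⟩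
          · exact Or.inr (Or.inl ⟨mem_univ _, h1⟩)
        · intro i hi
          rw [mem_union, mem_union, mem_filter, mem_filter, mem_filter]
          rcases hws k' i hi with h1 | h1
          · exact Or.inl ⟨mem_univ _, by rw [h1, h]⟩
          · exact Or.inr (Or.inr ⟨mem_univ _, h1⟩)
      · refine ⟨(univ.filter fun i => β' i = τ' (β' k)) ∪ ((univ.filter fun i => β i = τ (β k)) ∪
          (univ.filter fun i => β i = τ (β k'))), ?_, ?_, ?_⟩
        · have e1 := hβ'.card_le (τ' (β' k))
          have e2 := hβ.card_le (τ (β k))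
          have e3 := hβ.card_le (τ (β k'))
          have e4 := card_union_le (univ.filter fun i => β' i = τ' (β' k)) ((univ.filter fun i => β i = τ (β k)) ∪
            (univ.filter fun i => β i = τ (β k')))
          have e5 := card_union_le (univ.filter fun i => β i = τ (β k)) (univ.filter fun i => β i = τ (β k'))
          omega
        · intro i hi
          rw [mem_union, mem_union, mem_filter, mem_filter, mem_filter]
          rcases hws k i hi with h1 | h1
          · exact Or.inr (Or.inl ⟨mem_univ _, h1⟩)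
          · exact Or.inl ⟨mem_univ _, h1⟩
        · intro i hi
          rw [mem_union, mem_union, mem_filter, mem_filter, mem_filter]
          rcases hws k' i hi with h1 | h1
          · exact Or.inr (Or.inr ⟨mem_univ _, h1⟩)
          · exact Or.inl ⟨mem_univ _, by rw [h1, h]⟩
    obtain ⟨i, hiv, his⟩ := hbig s hs
    have h1 : w k i = 0 := by
      by_contra h
      exact his (hs1 i h)
    have h2 : w k' i = 0 := by
      by_contra h
      exact his (hs2 i h)
    have h3 : y v i = l k * v i := by
      rw [hw k hk, Pi.add_apply, Pi.smul_apply, h1, zero_add, smul_eq_mul]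
    have h4 : y v i = l k' * v i := by
      rw [hw k' hk', Pi.add_apply, Pi.smul_apply, h2, zero_add, smul_eq_mul]
    exact mul_right_cancel₀ hiv (h3.symm.trans h4)
  have hl : ∀ i : Fin 5, l (c i) = l (c 0) := by
    intro i
    induction i using Fin.induction with
    | zero => rfl
    | succ i ih => rw [← ih]; exact (hadj' _ _ (hcv _) (hcv _) (hadj i)).symm
  have hwc : ∀ i : Fin 5, w (c i) = w (c 0) := by
    intro i
    have h1 := hw (c i) (hcv i)
    rw [hw (c 0) (hcv 0), hl i] at h1
    exact (add_right_cancel h1).symm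
  have hw0 : w (c 0) = 0 := by
    by_contra hne
    obtain ⟨i, hi⟩ := Function.ne_iff.1 hne
    change w (c 0) i ≠ 0 at hi
    have h1 : ∀ j : Fin 5, β i = τ (β (c j)) ∨ β' i = τ' (β' (c j)) := by
      intro j
      apply hws
      rw [hwc j]
      exact hi
    by_cases ha : ∃ j0 : Fin 5, β i = τ (β (c j0))
    · obtain ⟨j0, hj0⟩ := ha
      by_cases hb : ∃ j1 : Fin 5, β' i = τ' (β' (c j1))
      · obtain ⟨j1, hj1⟩ := hb
        have h2 : (univ : Finset (Fin 5)) ⊆ (univ.filter fun j => β (c j) = β (c j0)) ∪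
            (univ.filter fun j => β' (c j) = β' (c j1)) := by
          intro j _
          rw [mem_union, mem_filter, mem_filter]
          rcases h1 j with h | h
          · exact Or.inl ⟨mem_univ _, hτ (h.symm.trans hj0)⟩
          · exact Or.inr ⟨mem_univ _, hτ' (h.symm.trans hj1)⟩
        have h3 := (card_le_card h2).trans (card_union_le _ _)
        have h4 := hβ.card_le_of_inj (β (c j0)) hc
        have h5 := hβ'.card_le_of_inj (β' (c j1)) hc
        rw [card_univ, Fintype.card_fin] at h3
        omega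
      · push Not at hb
        have h2 : (univ : Finset (Fin 5)) ⊆ (univ.filter fun j => β (c j) = β (c j0)) := by
          intro j _
          rw [mem_filter]
          exact ⟨mem_univ _, hτ (((h1 j).resolve_right (hb j)).symm.trans hj0)⟩
        have h3 := card_le_card h2
        have h4 := hβ.card_le_of_inj (β (c j0)) hc
        rw [card_univ, Fintype.card_fin] at h3
        omega
    · push Not at ha
      have hj1 := (h1 0).resolve_left (ha 0)
      have h2 : (univ : Finset (Fin 5)) ⊆ (univ.filter fun j => β' (c j) = β' (c 0)) := by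
        intro j _
        rw [mem_filter]
        exact ⟨mem_univ _, hτ' (((h1 j).resolve_left (ha j)).symm.trans hj1)⟩
      have h3 := card_le_card h2
      have h4 := hβ'.card_le_of_inj (β' (c 0)) hc
      rw [card_univ, Fintype.card_fin] at h3
      omega
  have hyv : y v = l (c 0) • v := by
    rw [hw (c 0) (hcv 0), hw0, zero_add]
  -- all the frame
  have hall : ∀ k, y (Pi.single k 1) = y₂ (Pi.single k 1) ∧
      φ (y₂ (Pi.single k 1)) = l (c 0) * φ (Pi.single k 1) := by
    intro k
    have h1 := hrel (Pi.single k 1)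
    rw [map_add, map_smul, hyv] at h1
    have h2 : y (Pi.single k 1) - y₂ (Pi.single k 1) =
        (φ (y₂ (Pi.single k 1)) - l (c 0) * φ (Pi.single k 1)) • v := by
      have e := sub_eq_zero.2 h1
      rw [← sub_eq_zero]
      rw [← e, smul_smul, sub_smul, mul_comm (l (c 0))]
      abel
    obtain ⟨i, hiv, his⟩ := hbig ((univ.filter fun i => β i = τ (β k)) ∪ (univ.filter fun i => β' i = τ' (β' k))) (by
      have e1 := hβ.card_le (τ (β k))
      have e2 := hβ'.card_le (τ' (β' k))
      have e4 := card_union_le (univ.filter fun i => β i = τ (β k)) (univ.filter fun i => β' i = τ' (β' k))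
      omega)
    rw [mem_union, mem_filter, mem_filter, not_or] at his
    have h3 : y (Pi.single k 1) i = 0 := by
      by_contra h
      exact his.1 ⟨mem_univ _, hy k i h⟩
    have h4 : y₂ (Pi.single k 1) i = 0 := by
      by_contra h
      exact his.2 ⟨mem_univ _, hy₂ k i h⟩
    have h5 := congrFun h2 i
    rw [Pi.sub_apply, h3, h4, sub_zero, Pi.smul_apply, smul_eq_mul] at h5
    have h6 := (mul_eq_zero.1 h5.symm).resolve_right hiv
    refine ⟨?_, sub_eq_zero.1 h6⟩
    rw [h6, zero_smul] at h2
    exact sub_eq_zero.1 h2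
  have hyy : y = y₂ := by
    apply (Pi.basisFun F κ).ext
    intro k
    rw [Pi.basisFun_apply]
    exact (hall k).1
  refine ⟨l (c 0), hyv, hyy, ?_⟩
  have h6 : φ ∘ₗ y = l (c 0) • φ := by
    apply (Pi.basisFun F κ).ext
    intro k
    rw [Pi.basisFun_apply, LinearMap.comp_apply, LinearMap.smul_apply, (hall k).1, (hall k).2, smul_eq_mul]
  intro u
  have := LinearMap.congr_fun h6 u
  rwa [LinearMap.comp_apply, LinearMap.smul_apply, smul_eq_mul] at this

/-- `y` is monomial -/
theorem mono (hsep : ∀ i j, β i = β j → β' i = β' j → i = j) (hinj : Function.Injective y)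
    (hτ : Function.Injective τ) (hτ' : Function.Injective τ') (hy : Blk β y τ) (hy' : Blk β' y τ') :
    ∃ (σ : Equiv.Perm κ) (c : κ → F), (∀ k, c k ≠ 0) ∧ (∀ k, y (Pi.single k 1) = c k • Pi.single (σ k) 1) ∧
      (∀ k, β (σ k) = τ (β k)) ∧ ∀ k, β' (σ k) = τ' (β' k) := by
  have h1 : ∀ k, ∃ i, y (Pi.single k 1) i ≠ 0 := by
    intro k
    have h2 : y (Pi.single k 1) ≠ 0 := by
      intro h
      rw [← map_zero y] at h
      have h3 := congrFun (hinj h) k
      rw [Pi.single_eq_same] at h3
      exact one_ne_zero h3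
    exact Function.ne_iff.1 h2
  choose s hs using h1
  have hu : ∀ k i, y (Pi.single k 1) i ≠ 0 → i = s k := fun k i h =>
    hsep _ _ ((hy k i h).trans (hy k _ (hs k)).symm) ((hy' k i h).trans (hy' k _ (hs k)).symm)
  have hsi : Function.Injective s := by
    intro k k' h
    refine hsep _ _ (hτ ?_) (hτ' ?_)
    · rw [← hy k _ (hs k), h, hy k' _ (hs k')]
    · rw [← hy' k _ (hs k), h, hy' k' _ (hs k')]
  refine ⟨Equiv.ofBijective s (Finite.injective_iff_bijective.1 hsi), fun k => y (Pi.single k 1) (s k), hs, fun k => ?_,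
    fun k => hy k _ (hs k), fun k => hy' k _ (hs k)⟩
  funext i
  rw [Pi.smul_apply, smul_eq_mul, Equiv.ofBijective_apply]
  by_cases h : i = s k
  · subst h
    rw [Pi.single_eq_same, mul_one]
  · rw [Pi.single_eq_of_ne h, mul_zero]
    by_contra h2
    exact h (hu k i h2)

/-- the consequences for the coordinates of the fixed vector -/
theorem mono_label {σ : Equiv.Perm κ} {c : κ → F} (hc : ∀ k, y (Pi.single k 1) = c k • Pi.single (σ k) 1) {l : F}
    (hv : y v = l • v) : ∀ k, c k * v k = l * v (σ k) := by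
  have h1 : v = ∑ k, v k • (Pi.single k 1 : κ → F) := by
    rw [← pi_eq_sum_univ' v]
  intro k
  have h2 : y v (σ k) = c k * v k := by
    conv_lhs => rw [h1]
    rw [map_sum, Finset.sum_apply, Finset.sum_eq_single k]
    · rw [map_smul, hc, Pi.smul_apply, Pi.smul_apply, Pi.single_eq_same, smul_eq_mul, smul_eq_mul, mul_one, mul_comm]
    · intro j _ hj
      rw [map_smul, hc, Pi.smul_apply, Pi.smul_apply, Pi.single_eq_of_ne (fun h => hj (σ.injective h).symm), smul_zero,
        smul_zero]
    · intro h
      exact (h (mem_univ _)).elim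
  rw [hv, Pi.smul_apply, smul_eq_mul] at h2
  exact h2.symm

/-- fixed lines propagate along blocks -/
theorem fixed_step {γ : κ → B} (hγ : Two γ) {σ : Equiv.Perm κ} {τ : B → B} (h : ∀ k, γ (σ k) = τ (γ k)) {i j : κ}
    (hij : γ i = γ j) (hi : σ i = i) : σ j = j := by
  by_cases hne : i = j
  · rw [← hne, hi]
  have h1 : γ (σ j) = γ i := by rw [h, ← hij, ← h, hi]
  rcases hγ (σ j) i j h1 hij with h2 | h2 | h2
  · exact (hne (σ.injective (hi.trans h2.symm))).elim
  · exact (hne h2).elim
  · exact h2

/-- fixed lines propagate along a chain -/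
theorem chain_fixed (hβ : Two β) (hβ' : Two β') {σ : Equiv.Perm κ} (h : ∀ k, β (σ k) = τ (β k))
    (h' : ∀ k, β' (σ k) = τ' (β' k)) {n : ℕ} (c : Fin n → κ)
    (hc : ∀ (i : ℕ) (hi : i + 1 < n), β (c ⟨i, by omega⟩) = β (c ⟨i + 1, hi⟩) ∨
      β' (c ⟨i, by omega⟩) = β' (c ⟨i + 1, hi⟩)) (h0 : ∀ h : 0 < n, σ (c ⟨0, h⟩) = c ⟨0, h⟩) (i : Fin n) :
    σ (c i) = c i := by
  obtain ⟨i, hi⟩ := i
  induction i with
  | zero => exact h0 hi
  | succ i ih =>
    have h1 := ih (by omega)
    rcases hc i hi with h2 | h2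
    · exact fixed_step hβ h h2 h1
    · exact fixed_step hβ' h' h2 h1

end Cfsg.Agent.H955.Rig
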