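import Mathlib
import Cfsg.Agent.H955.FrameRig

/-!
# Two matchings of a frame in two components (helper955, S5760)

`κ = Fin (m₁ * 2 + δ₁) ⊕ Fin (m₂ * 2 + δ₂)`, `δᵢ ≤ 1`; `bet` : the blocks `{0, 1}, {2, 3}, …` of the two components,
`rot` : the rotation `i ↦ i + 1` of both components.
-/

set_option autoImplicit false
set_option linter.unusedSectionVars false

namespace Cfsg.Agent.H955.Rig

open Sum (inl inr)

/-- one component -/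
def e1 (m δ : ℕ) : (Fin m × Fin 2) ⊕ Fin δ ≃ Fin (m * 2 + δ) :=
  (Equiv.sumCongr finProdFinEquiv (Equiv.refl _)).trans finSumFinEquiv

theorem e1_inl (m δ : ℕ) (b : Fin m) (ε : Fin 2) : (e1 m δ (inl (b, ε)) : ℕ) = 2 * b + ε := by
  simp [e1, add_comm]

theorem e1_inr (m δ : ℕ) (j : Fin δ) : (e1 m δ (inr j) : ℕ) = m * 2 + j := by
  simp [e1]

/-- two components -/
def e2 (m₁ δ₁ m₂ δ₂ : ℕ) :
    (Fin (m₁ + m₂) × Fin 2) ⊕ Fin (δ₁ + δ₂) ≃ Fin (m₁ * 2 + δ₁) ⊕ Fin (m₂ * 2 + δ₂) :=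
  (Equiv.sumCongr (((Equiv.prodCongr finSumFinEquiv.symm (Equiv.refl _))).trans (Equiv.sumProdDistrib _ _ _))
    finSumFinEquiv.symm).trans ((Equiv.sumSumSumComm _ _ _ _).trans (Equiv.sumCongr (e1 m₁ δ₁) (e1 m₂ δ₂)))

variable {m₁ δ₁ m₂ δ₂ : ℕ}

theorem e2_inl_left (b : Fin m₁) (ε : Fin 2) :
    e2 m₁ δ₁ m₂ δ₂ (inl (Fin.castAdd m₂ b, ε)) = inl (e1 m₁ δ₁ (inl (b, ε))) := by
  simp [e2]

theorem e2_inl_right (b : Fin m₂) (ε : Fin 2) :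
    e2 m₁ δ₁ m₂ δ₂ (inl (Fin.natAdd m₁ b, ε)) = inr (e1 m₂ δ₂ (inl (b, ε))) := by
  simp [e2]

theorem e2_inr_left (j : Fin δ₁) : e2 m₁ δ₁ m₂ δ₂ (inr (Fin.castAdd δ₂ j)) = inl (e1 m₁ δ₁ (inr j)) := by
  simp [e2]

theorem e2_inr_right (j : Fin δ₂) : e2 m₁ δ₁ m₂ δ₂ (inr (Fin.natAdd δ₁ j)) = inr (e1 m₂ δ₂ (inr j)) := by
  simp [e2]

/-- the block of a line -/
def blk {m k : ℕ} {κ : Type*} (e : (Fin m × Fin 2) ⊕ Fin k ≃ κ) (i : κ) : Fin m ⊕ Fin k :=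
  Sum.map Prod.fst id (e.symm i)

theorem blk_apply {m k : ℕ} {κ : Type*} (e : (Fin m × Fin 2) ⊕ Fin k ≃ κ) (s : (Fin m × Fin 2) ⊕ Fin k) :
    blk e (e s) = Sum.map Prod.fst id s := by
  rw [blk, Equiv.symm_apply_apply]

/-- the block of a line -/
def bet (m₁ δ₁ m₂ δ₂ : ℕ) : Fin (m₁ * 2 + δ₁) ⊕ Fin (m₂ * 2 + δ₂) → Fin (m₁ + m₂) ⊕ Fin (δ₁ + δ₂) :=
  blk (e2 m₁ δ₁ m₂ δ₂)

/-- numerical version -/
def num : Fin (m₁ * 2 + δ₁) ⊕ Fin (m₂ * 2 + δ₂) → ℕ ⊕ ℕ := Sum.map (fun i => (i : ℕ) / 2) (fun i => (i : ℕ) / 2)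

private def gg (m₁ δ₁ m₂ δ₂ : ℕ) : Fin (m₁ + m₂) ⊕ Fin (δ₁ + δ₂) → ℕ ⊕ ℕ
  | inl b => if (b : ℕ) < m₁ then inl b else inr (b - m₁)
  | inr j => if (j : ℕ) < δ₁ then inl m₁ else inr m₂

private theorem gg_injective (h1 : δ₁ ≤ 1) (h2 : δ₂ ≤ 1) : Function.Injective (gg m₁ δ₁ m₂ δ₂) := by
  rintro (⟨b, hb⟩ | ⟨b, hb⟩) (⟨c, hc⟩ | ⟨c, hc⟩) h
  · simp only [gg] at h
    split_ifs at h with h3 h4 h4
    · rw [Sum.inl.injEq] at h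
      subst h
      rfl
    · rw [Sum.inr.injEq] at h
      congr 2
      omega
  · simp only [gg] at h
    split_ifs at h with h3 h4 h4
    · rw [Sum.inl.injEq] at h
      omega
    · rw [Sum.inr.injEq] at h
      omega
  · simp only [gg] at h
    split_ifs at h with h3 h4 h4
    · rw [Sum.inl.injEq] at h
      omega
    · rw [Sum.inr.injEq] at h
      omega
  · simp only [gg] at h
    split_ifs at h with h3 h4 h4
    · congr 2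
      omega
    · congr 2
      omega

private theorem num_eq_gg (h1 : δ₁ ≤ 1) (h2 : δ₂ ≤ 1) (x : Fin (m₁ * 2 + δ₁) ⊕ Fin (m₂ * 2 + δ₂)) :
    num x = gg m₁ δ₁ m₂ δ₂ (bet m₁ δ₁ m₂ δ₂ x) := by
  obtain ⟨s, rfl⟩ := (e2 m₁ δ₁ m₂ δ₂).surjective x
  rw [bet, blk_apply]
  rcases s with ⟨b, ε⟩ | j
  · have hε := ε.2
    induction b using Fin.addCases with
    | left b =>
      rw [e2_inl_left]
      simp only [num, Sum.map_inl, gg, e1_inl, Fin.val_castAdd, if_pos b.2]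
      congr 1
      omega
    | right b =>
      rw [e2_inl_right]
      simp only [num, Sum.map_inl, Sum.map_inr, gg, e1_inl, Fin.val_natAdd]
      rw [if_neg (by omega)]
      congr 1
      omega
  · induction j using Fin.addCases with
    | left j =>
      rw [e2_inr_left]
      simp only [num, Sum.map_inl, Sum.map_inr, gg, e1_inr, Fin.val_castAdd, id, if_pos j.2]
      congr 1
      omega
    | right j =>
      rw [e2_inr_right]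
      simp only [num, Sum.map_inr, gg, e1_inr, Fin.val_natAdd, id]
      rw [if_neg (by omega)]
      congr 1
      omega

theorem bet_eq_iff (h1 : δ₁ ≤ 1) (h2 : δ₂ ≤ 1) {x y : Fin (m₁ * 2 + δ₁) ⊕ Fin (m₂ * 2 + δ₂)} :
    bet m₁ δ₁ m₂ δ₂ x = bet m₁ δ₁ m₂ δ₂ y ↔ num x = num y := by
  rw [num_eq_gg h1 h2, num_eq_gg h1 h2]
  exact ⟨fun h => by rw [h], fun h => gg_injective h1 h2 h⟩

/-- the rotation -/
def rotn (m₁ δ₁ m₂ δ₂ : ℕ) : Equiv.Perm (Fin (m₁ * 2 + δ₁) ⊕ Fin (m₂ * 2 + δ₂)) :=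
  Equiv.sumCongr (finRotate _) (finRotate _)

theorem val_finRotate {n : ℕ} (i : Fin n) : ((finRotate n i : Fin n) : ℕ) = if (i : ℕ) + 1 < n then (i : ℕ) + 1 else 0 := by
  cases n with
  | zero => exact i.elim0
  | succ n =>
    split_ifs with h
    · exact coe_finRotate_of_ne_last (fun h' => by rw [h', Fin.val_last] at h; omega)
    · have h1 : i = Fin.last n := Fin.ext (by rw [Fin.val_last]; omega)
      rw [h1, finRotate_last]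
      rfl

theorem val_finRotate_symm {n : ℕ} (i : Fin n) :
    (((finRotate n).symm i : Fin n) : ℕ) = if (i : ℕ) = 0 then n - 1 else (i : ℕ) - 1 := by
  obtain ⟨j, rfl⟩ := (finRotate n).surjective i
  rw [Equiv.symm_apply_apply, val_finRotate]
  have := j.2
  by_cases h : (j : ℕ) + 1 < n
  · rw [if_pos h, if_neg (by omega)]
    omega
  · rw [if_neg h, if_pos rfl]
    omega

/-- the other blocks -/
def bet' (m₁ δ₁ m₂ δ₂ : ℕ) (x : Fin (m₁ * 2 + δ₁) ⊕ Fin (m₂ * 2 + δ₂)) : Fin (m₁ + m₂) ⊕ Fin (δ₁ + δ₂) :=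
  bet m₁ δ₁ m₂ δ₂ ((rotn m₁ δ₁ m₂ δ₂).symm x)

theorem rotn_symm_inl (i : Fin (m₁ * 2 + δ₁)) : (rotn m₁ δ₁ m₂ δ₂).symm (inl i) = inl ((finRotate _).symm i) := rfl

theorem rotn_symm_inr (i : Fin (m₂ * 2 + δ₂)) : (rotn m₁ δ₁ m₂ δ₂).symm (inr i) = inr ((finRotate _).symm i) := rfl

theorem num_inl (i : Fin (m₁ * 2 + δ₁)) : num (inl i : Fin (m₁ * 2 + δ₁) ⊕ Fin (m₂ * 2 + δ₂)) = inl ((i : ℕ) / 2) := rfl

theorem num_inr (i : Fin (m₂ * 2 + δ₂)) : num (inr i : Fin (m₁ * 2 + δ₁) ⊕ Fin (m₂ * 2 + δ₂)) = inr ((i : ℕ) / 2) := rfl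

theorem two_bet (h1 : δ₁ ≤ 1) (h2 : δ₂ ≤ 1) : Two (bet m₁ δ₁ m₂ δ₂) := by
  intro i j k hij hjk
  rw [bet_eq_iff h1 h2] at hij hjk
  rcases i with i | i <;> rcases j with j | j <;> rcases k with k | k <;>
    simp only [num_inl, num_inr, reduceCtorEq, Sum.inl.injEq, Sum.inr.injEq] at hij hjk ⊢ <;>
    simp only [Fin.ext_iff] <;> omega

theorem Two.comp {κ κ' B : Type*} {β : κ → B} (h : Two β) {f : κ' → κ} (hf : Function.Injective f) :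
    Two (fun i => β (f i)) := by
  intro i j k hij hjk
  rcases h (f i) (f j) (f k) hij hjk with h1 | h1 | h1
  · exact Or.inl (hf h1)
  · exact Or.inr (Or.inl (hf h1))
  · exact Or.inr (Or.inr (hf h1))

theorem two_bet' (h1 : δ₁ ≤ 1) (h2 : δ₂ ≤ 1) : Two (bet' m₁ δ₁ m₂ δ₂) :=
  (two_bet h1 h2).comp (rotn m₁ δ₁ m₂ δ₂).symm.injective

theorem sep (h1 : δ₁ ≤ 1) (h2 : δ₂ ≤ 1) (hN1 : m₁ * 2 + δ₁ ≠ 2) (hN2 : m₂ * 2 + δ₂ ≠ 2)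
    (i j : Fin (m₁ * 2 + δ₁) ⊕ Fin (m₂ * 2 + δ₂)) (hij : bet m₁ δ₁ m₂ δ₂ i = bet m₁ δ₁ m₂ δ₂ j)
    (hij' : bet' m₁ δ₁ m₂ δ₂ i = bet' m₁ δ₁ m₂ δ₂ j) : i = j := by
  rw [bet', bet', bet_eq_iff h1 h2] at hij'
  rw [bet_eq_iff h1 h2] at hij
  rcases i with i | i <;> rcases j with j | j <;>
    simp only [num_inl, num_inr, rotn_symm_inl, rotn_symm_inr, reduceCtorEq, Sum.inl.injEq, Sum.inr.injEq,
      val_finRotate_symm] at hij hij' ⊢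
  · rw [Fin.ext_iff]
    have h3 := i.2
    have h4 := j.2
    split_ifs at hij' <;> omega
  · rw [Fin.ext_iff]
    have h3 := i.2
    have h4 := j.2
    split_ifs at hij' <;> omega

theorem chain1 (h1 : δ₁ ≤ 1) (h2 : δ₂ ≤ 1) (i : ℕ) (hi : i + 1 < m₁ * 2 + δ₁) :
    bet m₁ δ₁ m₂ δ₂ (inl ⟨i, by omega⟩) = bet m₁ δ₁ m₂ δ₂ (inl ⟨i + 1, hi⟩) ∨
      bet' m₁ δ₁ m₂ δ₂ (inl ⟨i, by omega⟩) = bet' m₁ δ₁ m₂ δ₂ (inl ⟨i + 1, hi⟩) := by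
  rw [bet', bet', bet_eq_iff h1 h2, bet_eq_iff h1 h2]
  simp only [num_inl, rotn_symm_inl, Sum.inl.injEq, val_finRotate_symm]
  rcases Nat.even_or_odd' i with ⟨r, hr | hr⟩
  · left
    omega
  · right
    rw [if_neg (by omega), if_neg (by omega)]
    have := hr
    omega

theorem chain2 (h1 : δ₁ ≤ 1) (h2 : δ₂ ≤ 1) (i : ℕ) (hi : i + 1 < m₂ * 2 + δ₂) :
    bet m₁ δ₁ m₂ δ₂ (inr ⟨i, by omega⟩) = bet m₁ δ₁ m₂ δ₂ (inr ⟨i + 1, hi⟩) ∨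
      bet' m₁ δ₁ m₂ δ₂ (inr ⟨i, by omega⟩) = bet' m₁ δ₁ m₂ δ₂ (inr ⟨i + 1, hi⟩) := by
  rw [bet', bet', bet_eq_iff h1 h2, bet_eq_iff h1 h2]
  simp only [num_inr, rotn_symm_inr, Sum.inr.injEq, val_finRotate_symm]
  rcases Nat.even_or_odd' i with ⟨r, hr | hr⟩
  · left
    omega
  · right
    rw [if_neg (by omega), if_neg (by omega)]
    have := hr
    omega

/-- the last line of the first component is a single block if `δ₁ = 1` -/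
theorem bet_last (m₁ m₂ δ₂ : ℕ) : ∃ j, bet m₁ 1 m₂ δ₂ (inl ⟨m₁ * 2, by omega⟩) = inr j := by
  refine ⟨Fin.castAdd δ₂ 0, ?_⟩
  have h1 : (inl ⟨m₁ * 2, by omega⟩ : Fin (m₁ * 2 + 1) ⊕ Fin (m₂ * 2 + δ₂)) =
      e2 m₁ 1 m₂ δ₂ (inr (Fin.castAdd δ₂ 0)) := by
    rw [e2_inr_left]
    congr 1
  rw [h1, bet, blk_apply]
  rfl

/-- the first line of the first component is fixed if `δ₁ = 1` -/
theorem root1 (h2 : δ₂ ≤ 1) {σ : Equiv.Perm (Fin (m₁ * 2 + 1) ⊕ Fin (m₂ * 2 + δ₂))}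
    {τ : Fin (m₁ + m₂) ⊕ Fin (1 + δ₂) → Fin (m₁ + m₂) ⊕ Fin (1 + δ₂)} (hτ : ∀ j, τ (inr j) = inr j)
    (h : ∀ k, bet' m₁ 1 m₂ δ₂ (σ k) = τ (bet' m₁ 1 m₂ δ₂ k)) : σ (inl ⟨0, by omega⟩) = inl ⟨0, by omega⟩ := by
  obtain ⟨j, hj⟩ := bet_last m₁ m₂ δ₂
  have h3 : bet' m₁ 1 m₂ δ₂ (inl ⟨0, by omega⟩) = inr j := by
    rw [bet', rotn_symm_inl, ← hj]
    congr 2
  have h4 := h (inl ⟨0, by omega⟩)
  rw [h3, hτ, ← h3, bet', bet', bet_eq_iff le_rfl h2] at h4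
  obtain ⟨x, hx⟩ : ∃ x, σ (inl ⟨0, by omega⟩) = x := ⟨_, rfl⟩
  rw [hx] at h4 ⊢
  rcases x with x | x <;>
    simp only [num_inl, num_inr, rotn_symm_inl, rotn_symm_inr, reduceCtorEq, Sum.inl.injEq, val_finRotate_symm] at h4 ⊢
  rw [Fin.ext_iff]
  have h5 := x.2
  simp only [if_true] at h4 ⊢
  split_ifs at h4 <;> omega

end Cfsg.Agent.H955.Rig
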